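import Cfsg.Agent.H311.SQ.Abs
import Cfsg.Agent.H452.Singer
import Cfsg.Agent.OddOrderCharacters.PrimeTI

/-!
# S4844: the Coxeter torus of `PGU(3,q)` (helper311)

`exists_tor` : the image of the torus of order `q³ + 1` of `GU(3,q)` in the quotient by the scalars.
-/

set_option autoImplicit false
set_option linter.unusedSectionVars false

open Cfsg Cfsg.Geo Matrix

namespace Cfsg.Agent.H311.SQ

open Cfsg.Agent.H907 Cfsg.Agent.H918 Cfsg.Agent.H452.Singer Subgroup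
open scoped MatrixGroups

/-- a prime `r ≥ 5` dividing `q² - q + 1` -/
theorem exists_r {q : ℕ} (hq : 3 ≤ q) : ∃ r, r.Prime ∧ 5 ≤ r ∧ r ∣ q ^ 2 - q + 1 := by
  have e1 : q ^ 2 - q + 1 = q * (q - 1) + 1 := by
    obtain ⟨m, rfl⟩ : ∃ m, q = m + 1 := ⟨q - 1, by omega⟩
    have : (m + 1) ^ 2 - (m + 1) = (m + 1) * m := by
      have : (m + 1) ^ 2 = (m + 1) * m + (m + 1) := by ring
      omega
    rw [this, Nat.add_sub_cancel]
  have h7 : 7 ≤ q * (q - 1) + 1 := by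
    have : 3 * 2 ≤ q * (q - 1) := Nat.mul_le_mul hq (by omega)
    omega
  by_contra hcon
  push Not at hcon
  have hodd : ¬ 2 ∣ q ^ 2 - q + 1 := by
    rw [e1]
    intro h
    have h1 : Even (q * (q - 1)) := by
      have := Nat.even_mul_succ_self (q - 1)
      rw [Nat.sub_add_cancel (by omega), mul_comm] at this
      exact this
    rw [Nat.even_iff] at h1
    omega
  have h3 : ∀ {d : ℕ}, d.Prime → d ∣ q ^ 2 - q + 1 → d = 3 := by
    intro d hd hdd
    have h5 : d < 5 := by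
      by_contra h
      exact hcon d hd (by omega) hdd
    have h2 := hd.two_le
    interval_cases d
    · exact absurd hdd hodd
    · rfl
    · exact absurd hd (by norm_num)
  have h4 := Nat.eq_prime_pow_of_unique_prime_dvd (n := q ^ 2 - q + 1) (p := 3) (by rw [e1]; omega) h3
  set a := (q ^ 2 - q + 1).primeFactorsList.length with ha
  have ha2 : 2 ≤ a := by
    by_contra h
    have : 3 ^ a ≤ 3 ^ 1 := Nat.pow_le_pow_right (by norm_num) (by omega)
    rw [← h4, e1] at this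
    omega
  have h9 : 9 ∣ q * (q - 1) + 1 := by
    rw [← e1, h4]
    exact pow_dvd_pow 3 ha2
  have h10 : (q * (q - 1) + 1) % 9 = 0 := Nat.mod_eq_zero_of_dvd h9
  obtain ⟨m, rfl⟩ : ∃ m, q = m + 1 := ⟨q - 1, by omega⟩
  rw [Nat.add_sub_cancel] at h10
  have h11 : ((m + 1) * m + 1) % 9 = (((m % 9) + 1) * (m % 9) + 1) % 9 := by
    simp [Nat.add_mod, Nat.mul_mod]
  rw [h11] at h10
  have h12 : m % 9 < 9 := Nat.mod_lt _ (by norm_num)
  interval_cases m % 9 <;> omega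

section

variable {F : Type*} [Field F] [Fintype F] {K : Subalgebra F (Matrix (Fin 3) (Fin 3) F)}

/-- scalar matrices -/
def Scal (m : Matrix (Fin 3) (Fin 3) F) : Prop := ∃ c : F, m = c • (1 : Matrix (Fin 3) (Fin 3) F)

theorem smul_mem_K (c : F) : c • (1 : Matrix (Fin 3) (Fin 3) F) ∈ K := K.smul_mem K.one_mem c

/-- an element conjugating a nonscalar element of `K` into `K` -/
theorem conj_mem (hK : IsFieldSubalgebra 3 K) {h : GL (Fin 3) F} {k : Matrix (Fin 3) (Fin 3) F} (hk : k ∈ K)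
    (hns : ¬ Scal k)
    (h1 : ((h⁻¹ : GL (Fin 3) F) : Matrix (Fin 3) (Fin 3) F) * k * (h : Matrix (Fin 3) (Fin 3) F) ∈ K) :
    ∀ a ∈ K, ((h⁻¹ : GL (Fin 3) F) : Matrix (Fin 3) (Fin 3) F) * a * (h : Matrix (Fin 3) (Fin 3) F) ∈ K := by
  intro a ha
  have hh : (h : Matrix (Fin 3) (Fin 3) F) * ((h⁻¹ : GL (Fin 3) F) : Matrix (Fin 3) (Fin 3) F) = 1 := by
    rw [← Units.val_mul, mul_inv_cancel, Units.val_one]
  have key : ∀ x y : Matrix (Fin 3) (Fin 3) F,
      (((h⁻¹ : GL (Fin 3) F) : Matrix (Fin 3) (Fin 3) F) * x * (h : Matrix (Fin 3) (Fin 3) F)) *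
        (((h⁻¹ : GL (Fin 3) F) : Matrix (Fin 3) (Fin 3) F) * y * (h : Matrix (Fin 3) (Fin 3) F)) =
      ((h⁻¹ : GL (Fin 3) F) : Matrix (Fin 3) (Fin 3) F) * (x * y) * (h : Matrix (Fin 3) (Fin 3) F) := by
    intro x y
    calc _ = ((h⁻¹ : GL (Fin 3) F) : Matrix (Fin 3) (Fin 3) F) * x * ((h : Matrix (Fin 3) (Fin 3) F) *
          ((h⁻¹ : GL (Fin 3) F) : Matrix (Fin 3) (Fin 3) F)) * y * (h : Matrix (Fin 3) (Fin 3) F) := by
            simp only [mul_assoc]
      _ = _ := by rw [hh, mul_one]; simp only [mul_assoc]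
  refine Cfsg.Agent.H907.SU3.mem_of_comm hK h1 ?_ ?_
  · rintro ⟨c, hc⟩
    apply hns
    refine ⟨c, ?_⟩
    calc k = ((h : Matrix (Fin 3) (Fin 3) F) * ((h⁻¹ : GL (Fin 3) F) : Matrix (Fin 3) (Fin 3) F)) * k *
          ((h : Matrix (Fin 3) (Fin 3) F) * ((h⁻¹ : GL (Fin 3) F) : Matrix (Fin 3) (Fin 3) F)) := by
            rw [hh, one_mul, mul_one]
      _ = (h : Matrix (Fin 3) (Fin 3) F) * (((h⁻¹ : GL (Fin 3) F) : Matrix (Fin 3) (Fin 3) F) * k *
          (h : Matrix (Fin 3) (Fin 3) F)) * ((h⁻¹ : GL (Fin 3) F) : Matrix (Fin 3) (Fin 3) F) := by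
            simp only [mul_assoc]
      _ = c • 1 := by rw [hc, Matrix.mul_smul, mul_one, Matrix.smul_mul, hh]
  · rw [key, key, hK.comm a ha k hk]

theorem mem_normalizer_of_conj (hK : IsFieldSubalgebra 3 K) {h : GL (Fin 3) F} {k : Matrix (Fin 3) (Fin 3) F}
    (hk : k ∈ K) (hns : ¬ Scal k)
    (h1 : ((h⁻¹ : GL (Fin 3) F) : Matrix (Fin 3) (Fin 3) F) * k * (h : Matrix (Fin 3) (Fin 3) F) ∈ K) :
    h ∈ subalgebraNormalizer K ∧ h⁻¹ ∈ subalgebraNormalizer K := by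
  have hh : (h : Matrix (Fin 3) (Fin 3) F) * ((h⁻¹ : GL (Fin 3) F) : Matrix (Fin 3) (Fin 3) F) = 1 := by
    rw [← Units.val_mul, mul_inv_cancel, Units.val_one]
  have h2 := conj_mem hK hk hns h1
  have e1 : (h : Matrix (Fin 3) (Fin 3) F) * (((h⁻¹ : GL (Fin 3) F) : Matrix (Fin 3) (Fin 3) F) * k *
      (h : Matrix (Fin 3) (Fin 3) F)) * ((h⁻¹ : GL (Fin 3) F) : Matrix (Fin 3) (Fin 3) F) = k := by
    calc _ = ((h : Matrix (Fin 3) (Fin 3) F) * ((h⁻¹ : GL (Fin 3) F) : Matrix (Fin 3) (Fin 3) F)) * k *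
          ((h : Matrix (Fin 3) (Fin 3) F) * ((h⁻¹ : GL (Fin 3) F) : Matrix (Fin 3) (Fin 3) F)) := by
            simp only [mul_assoc]
      _ = k := by rw [hh, one_mul, mul_one]
  have h3 := conj_mem (h := h⁻¹) hK h1 (by
    rintro ⟨c, hc⟩
    apply hns
    refine ⟨c, ?_⟩
    rw [← e1, hc, Matrix.mul_smul, mul_one, Matrix.smul_mul, hh]) (by rw [inv_inv, e1]; exact hk)
  rw [inv_inv] at h3
  have hN : h ∈ subalgebraNormalizer K := by
    intro m
    refine ⟨h3 m, fun hm => ?_⟩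
    have h4 := h2 _ hm
    have hh' : ((h⁻¹ : GL (Fin 3) F) : Matrix (Fin 3) (Fin 3) F) * (h : Matrix (Fin 3) (Fin 3) F) = 1 := by
      rw [← Units.val_mul, inv_mul_cancel, Units.val_one]
    have e2 : ((h⁻¹ : GL (Fin 3) F) : Matrix (Fin 3) (Fin 3) F) * ((h : Matrix (Fin 3) (Fin 3) F) * m *
        ((h⁻¹ : GL (Fin 3) F) : Matrix (Fin 3) (Fin 3) F)) * (h : Matrix (Fin 3) (Fin 3) F) = m := by
      calc _ = (((h⁻¹ : GL (Fin 3) F) : Matrix (Fin 3) (Fin 3) F) * (h : Matrix (Fin 3) (Fin 3) F)) * m *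
            (((h⁻¹ : GL (Fin 3) F) : Matrix (Fin 3) (Fin 3) F) * (h : Matrix (Fin 3) (Fin 3) F)) := by
              simp only [mul_assoc]
        _ = m := by rw [hh', one_mul, mul_one]
    rwa [e2] at h4
  exact ⟨hN, inv_mem hN⟩

end

theorem card_pow_eq {G : Type*} [Group G] [hG : IsCyclic G] [Finite G] (n : ℕ) :
    Nat.card {g : G // g ^ n = 1} = (Nat.card G).gcd n := by
  let i : CommGroup G := { (inferInstance : Group G) with
      mul_comm := fun a b => hG.isMulCommutative.is_comm.comm a b }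
  have h := @IsCyclic.card_powMonoidHom_ker G i hG _ n
  rw [← h]
  exact Nat.card_congr (Equiv.subtypeEquivRight fun g => by
    rw [MonoidHom.mem_ker]; rfl)

section

universe u

variable {F : Type*} [Field F] [Fintype F] {q : ℕ} {P : Type u} [Group P] [Finite P]

/-- **The Coxeter torus.** -/
theorem exists_tor (hF : Fintype.card F = q ^ 2) (hq : 3 ≤ q) (ψ : ↥(Cfsg.GU 3 F q) →* P)
    (hψ : Function.Surjective ψ)
    (hker : ∀ g : ↥(Cfsg.GU 3 F q), ψ g = 1 ↔ Scal ((g : GL (Fin 3) F) : Matrix (Fin 3) (Fin 3) F))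
    (hcard : Nat.card ψ.ker = q + 1) :
    ∃ C : Subgroup P, Tor C q ∧ ∃ θ : C →* ℂˣ, ∀ n ∈ normalizer (C : Set P), n ∉ C →
      ∃ (t : C) (h : n⁻¹ * t * n ∈ C), θ t ≠ θ ⟨n⁻¹ * t * n, h⟩ := by
  classical
  obtain ⟨r, hr, hr5, hd⟩ := exists_r hq
  have hrF := Fact.mk hr
  have hfinG : Finite (GL (Fin 3) F) := inferInstance
  have ho := ord_three hF hr5 hd
  have hqq : q ≤ q ^ 2 := Nat.le_self_pow (by norm_num) q
  have e0 : q ^ 3 + 1 = (q ^ 2 - q + 1) * (q + 1) := by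
    zify [hqq]
    ring
  -- the element of order `r`
  have hrS : r ∣ Nat.card (SUg 3 F q) := by
    rw [Cfsg.Agent.H907.SU3.card_SUg hF, e0]
    exact ((hd.mul_right _).mul_left _)
  obtain ⟨⟨x, hxS⟩, hxo⟩ := exists_prime_orderOf_dvd_card' (G := SUg 3 F q) r hrS
  rw [Subgroup.orderOf_mk] at hxo
  have hxU : x ∈ Cfsg.GU 3 F q := hxS.1
  have hxr : x ^ r = 1 := by rw [← hxo]; exact pow_orderOf_eq_one x
  have hx1 : x ≠ 1 := by
    rintro rfl
    rw [orderOf_one] at hxo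
    exact hr.one_lt.ne hxo
  have hX : (x : Matrix (Fin 3) (Fin 3) F) ^ r = 1 := by
    rw [← Units.val_pow_eq_pow_val, hxr, Units.val_one]
  have hX1 : (x : Matrix (Fin 3) (Fin 3) F) ≠ 1 := fun h => hx1 (Units.ext h)
  have hK := adjoin_field ho hX hX1
  have hadj := adjoin_adj (r := r) hF hxU hxr
  have hXK : (x : Matrix (Fin 3) (Fin 3) F) ∈ Algebra.adjoin F {(x : Matrix (Fin 3) (Fin 3) F)} :=
    Algebra.subset_adjoin (Set.mem_singleton _)
  have hns := not_scalar ho hX hX1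
  set K := Algebra.adjoin F {(x : Matrix (Fin 3) (Fin 3) F)} with hKdef
  -- the torus
  set Cg : Subgroup ↥(Cfsg.GU 3 F q) := (KU hK).subgroupOf (Cfsg.GU 3 F q) with hCg
  have hmemCg : ∀ g : ↥(Cfsg.GU 3 F q), g ∈ Cg ↔ ((g : GL (Fin 3) F) : Matrix (Fin 3) (Fin 3) F) ∈ K :=
    fun g => Iff.rfl
  have hkerle : ψ.ker ≤ Cg := by
    intro g hg
    obtain ⟨c, hc⟩ := (hker g).1 hg
    rw [hmemCg, hc]
    exact smul_mem_K c
  have hcardCg : Nat.card Cg = q ^ 3 + 1 := by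
    have hcyc := isCyclic_KU hK
    have h1 := card_pow_eq (G := KU hK) (q ^ 3 + 1)
    have h2 : (Nat.card (KU hK)).gcd (q ^ 3 + 1) = q ^ 3 + 1 := by
      rw [card_KU hK, hF]
      apply Nat.gcd_eq_right
      have h4 : (q ^ 2) ^ 3 - 1 = (q ^ 3 + 1) * (q ^ 3 - 1) := by
        have : (q ^ 2) ^ 3 = (q ^ 3) ^ 2 := by ring
        rw [this]
        have := Nat.sq_sub_sq (q ^ 3) 1
        simpa using this
      rw [h4]
      exact dvd_mul_right _ _
    rw [h2] at h1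
    rw [← h1]
    refine Nat.card_congr
      { toFun := fun g => ⟨⟨((g : ↥(Cfsg.GU 3 F q)) : GL (Fin 3) F), g.2⟩, ?_⟩
        invFun := fun g => ⟨⟨((g : KU hK) : GL (Fin 3) F), ?_⟩, (g : KU hK).2⟩
        left_inv := fun g => rfl
        right_inv := fun g => rfl }
    · exact Subtype.ext ((mem_GU_iff_pow hF hK hadj g.2).1 g.1.2)
    · exact (mem_GU_iff_pow hF hK hadj (g : KU hK).2).2 (congrArg Subtype.val g.2)
  set C : Subgroup P := Cg.map ψ with hC
  have hcardC : Nat.card C = q ^ 2 - q + 1 := by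
    have h1 : Nat.card Cg = Nat.card C * Nat.card (ψ.ker.subgroupOf Cg) := by
      have h2 := Subgroup.card_eq_card_quotient_mul_card_subgroup (ψ.ker.subgroupOf Cg)
      rw [h2]
      congr 1
      have h3 : (ψ.comp Cg.subtype).range = C := by rw [MonoidHom.range_comp, Subgroup.range_subtype]
      have h4 : (ψ.comp Cg.subtype).ker = ψ.ker.subgroupOf Cg := rfl
      rw [← h4, ← h3]
      exact Nat.card_congr (QuotientGroup.quotientKerEquivRange (ψ.comp Cg.subtype)).toEquiv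
    have h2 : Nat.card (ψ.ker.subgroupOf Cg) = q + 1 := by
      rw [← hcard]
      exact Nat.card_congr (Subgroup.subgroupOfEquivOfLe hkerle).toEquiv
    rw [hcardCg, h2, e0] at h1
    exact (Nat.eq_of_mul_eq_mul_right (Nat.succ_pos q) h1).symm
  -- membership
  have hback : ∀ g : ↥(Cfsg.GU 3 F q), ψ g ∈ C → g ∈ Cg := by
    rintro g ⟨k, hk, hkg⟩
    have h1 : k⁻¹ * g ∈ ψ.ker := by rw [MonoidHom.mem_ker, map_mul, map_inv, hkg, inv_mul_cancel]
    have h2 := Cg.mul_mem hk (hkerle h1)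
    rwa [mul_inv_cancel_left] at h2
  have hnormK : ∀ h : ↥(Cfsg.GU 3 F q), ∀ k ∈ Cg, ψ k ≠ 1 → h⁻¹ * k * h ∈ Cg →
      (h : GL (Fin 3) F) ∈ subalgebraNormalizer K ∧ (h : GL (Fin 3) F)⁻¹ ∈ subalgebraNormalizer K := by
    intro h k hk hk1 hc
    exact mem_normalizer_of_conj hK hk (fun h2 => hk1 ((hker k).2 h2)) hc
  -- the image of the element of order `r`
  set x' : ↥(Cfsg.GU 3 F q) := ⟨x, hxU⟩ with hx'
  have hx'C : ψ x' ∈ C := ⟨x', hXK, rfl⟩
  have hψx : ψ x' ≠ 1 := fun h => hns ((hker x').1 h)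
  have hψr : ψ x' ^ r = 1 := by
    rw [← map_pow]
    have : x' ^ r = 1 := Subtype.ext hxr
    rw [this, map_one]
  have hox : orderOf (ψ x') = r := orderOf_eq_prime hψr hψx
  -- the centraliser of the image of `x`
  have hcent : ∀ g : P, g * ψ x' = ψ x' * g → g ∈ C := by
    intro g hg
    obtain ⟨h, rfl⟩ := hψ g
    have h1 : (h * x' * h⁻¹) * x'⁻¹ ∈ ψ.ker := by
      rw [MonoidHom.mem_ker, map_mul, map_mul, map_mul, map_inv, map_inv, hg]
      group
    set z := (h * x' * h⁻¹) * x'⁻¹ with hz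
    obtain ⟨c, hc⟩ := (hker z).1 h1
    have hzc : ∀ g : ↥(Cfsg.GU 3 F q), z * g = g * z := by
      intro g
      apply Subtype.ext
      apply Units.ext
      change (((z : ↥(Cfsg.GU 3 F q)) : GL (Fin 3) F) : Matrix (Fin 3) (Fin 3) F) * ((g : GL (Fin 3) F) : Matrix (Fin 3) (Fin 3) F) =
        ((g : GL (Fin 3) F) : Matrix (Fin 3) (Fin 3) F) * (((z : ↥(Cfsg.GU 3 F q)) : GL (Fin 3) F) : Matrix (Fin 3) (Fin 3) F)
      rw [hc, Matrix.smul_mul, Matrix.mul_smul, one_mul, mul_one]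
    have h2 : h * x' * h⁻¹ = z * x' := by rw [hz, inv_mul_cancel_right]
    have hx'r : x' ^ r = 1 := Subtype.ext hxr
    have h3 : z ^ r = 1 := by
      have h4 : (h * x' * h⁻¹) ^ r = 1 := by rw [conj_pow, hx'r, mul_one, mul_inv_cancel]
      rw [h2, (show Commute z x' from hzc x').mul_pow, hx'r, mul_one] at h4
      exact h4
    have h4 : z ^ (q + 1) = 1 := by
      have h5 : (⟨z, h1⟩ : ψ.ker) ^ (q + 1) = 1 := by rw [← hcard]; exact pow_card_eq_one'
      exact congrArg Subtype.val h5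
    have h5 : Nat.Coprime r (q + 1) := by
      rw [Nat.Prime.coprime_iff_not_dvd hr]
      intro h6
      have h7 : r ∣ 3 := by
        have h8 : q ^ 2 - q + 1 + 3 * q = (q + 1) * (q + 1) := by
          zify [hqq]
          ring
        have h9 : r ∣ 3 * q := (Nat.dvd_add_right hd).1 (h8 ▸ h6.mul_right _)
        rcases hr.dvd_mul.1 h9 with h10 | h10
        · exact h10
        · have h11 := (Nat.dvd_add_right h10).1 h6
          exact absurd (Nat.dvd_one.1 h11) hr.one_lt.ne'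
      have := Nat.le_of_dvd (by norm_num) h7
      omega
    have h6 : z = 1 := by
      have h7 := Nat.dvd_gcd (orderOf_dvd_of_pow_eq_one h3) (orderOf_dvd_of_pow_eq_one h4)
      rw [h5] at h7
      exact orderOf_eq_one_iff.1 (Nat.dvd_one.1 h7)
    rw [h6, one_mul, mul_inv_eq_iff_eq_mul] at h2
    refine ⟨h, ?_, rfl⟩
    refine Cfsg.Agent.H907.SU3.mem_of_comm hK hXK hns ?_
    exact congrArg (fun g : ↥(Cfsg.GU 3 F q) => ((g : GL (Fin 3) F) : Matrix (Fin 3) (Fin 3) F)) h2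
  -- the normaliser
  have hnorm : ∀ h : ↥(Cfsg.GU 3 F q), ∀ k ∈ Cg, ψ k ≠ 1 → (ψ h)⁻¹ * ψ k * ψ h ∈ C →
      (h : GL (Fin 3) F) ∈ subalgebraNormalizer K ∧ (h : GL (Fin 3) F)⁻¹ ∈ subalgebraNormalizer K := by
    intro h k hk hk1 hc
    refine hnormK h k hk hk1 (hback _ ?_)
    rw [map_mul, map_mul, map_inv]
    exact hc
  have hidx : ∀ h : ↥(Cfsg.GU 3 F q), (h : GL (Fin 3) F) ∈ subalgebraNormalizer K →
      ∃ i < 3, ψ h * ψ x' * (ψ h)⁻¹ = ψ x' ^ (Fintype.card F ^ i) := by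
    intro h hh
    obtain ⟨i, hi, hik⟩ := Cfsg.Agent.H907.Mx.exists_index hK hh
    refine ⟨i, hi, ?_⟩
    rw [← map_inv, ← map_mul, ← map_mul, ← map_pow]
    congr 1
    apply Subtype.ext
    apply Units.ext
    have h1 := hik _ hXK
    change (h : GL (Fin 3) F).1 * x.1 * ((h : GL (Fin 3) F)⁻¹).1 = ((x ^ (Fintype.card F ^ i) : GL (Fin 3) F)).1
    rw [Units.val_pow_eq_pow_val]
    exact h1
  have hNidx : ∀ g ∈ normalizer (C : Set P), ∃ i < 3, g * ψ x' * g⁻¹ = ψ x' ^ (Fintype.card F ^ i) := by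
    intro g hg
    obtain ⟨h, rfl⟩ := hψ g
    refine hidx h (hnorm h x' hXK hψx ?_).1
    have h1 := (mem_normalizer_iff.1 (inv_mem hg) (ψ x')).1 hx'C
    rwa [inv_inv] at h1
  refine ⟨C, ⟨hcardC, ?_, ?_⟩, ?_⟩
  · rintro g t ⟨k, hk, rfl⟩ ht1 hc
    obtain ⟨h, rfl⟩ := hψ g
    obtain ⟨hN, -⟩ := hnorm h k hk ht1 hc
    rw [mem_normalizer_iff]
    intro c
    obtain ⟨b, rfl⟩ := hψ c
    constructor
    · intro hb
      refine ⟨h * b * h⁻¹, ?_, by rw [map_mul, map_mul, map_inv]⟩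
      exact (hN _).1 (hback b hb)
    · intro hb
      rw [← map_inv, ← map_mul, ← map_mul] at hb
      exact ⟨b, (hN _).2 (hback _ hb), rfl⟩
  · refine card_le_three (x := ψ x') (N := normalizer (C : Set P)) (C := C)
      (fun i => ψ x' ^ (Fintype.card F ^ (i : ℕ))) (fun g hg => ?_) (fun g _ hg => hcent g hg)
    obtain ⟨i, hi, h⟩ := hNidx g hg
    exact ⟨⟨i, hi⟩, h⟩
  · have hcomm : IsMulCommutative C := by
      refine ⟨⟨?_⟩⟩
      rintro ⟨_, a, ha, rfl⟩ ⟨_, b, hb, rfl⟩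
      apply Subtype.ext
      change ψ a * ψ b = ψ b * ψ a
      rw [← map_mul, ← map_mul]
      congr 1
      apply Subtype.ext
      apply Units.ext
      exact hK.comm _ ha _ hb
    set w : C := ⟨ψ x', hx'C⟩ with hw
    have hw1 : w ≠ 1 := fun h => hψx (congrArg Subtype.val h)
    obtain ⟨θ, -, hθ⟩ := OddOrderCharacters.PrimeTI.exists_hom_ne_one (G := C) hcomm ⊥ (w := w)
      (by rw [mem_bot]; exact hw1)
    refine ⟨θ, fun n hn hnC => ?_⟩
    obtain ⟨i, hi, h⟩ := hNidx n⁻¹ (inv_mem hn)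
    rw [inv_inv] at h
    have hmem : n⁻¹ * w * n ∈ C := by
      rw [hw]
      change n⁻¹ * ψ x' * n ∈ C
      rw [h]
      exact pow_mem hx'C _
    refine ⟨w, hmem, fun heq => ?_⟩
    apply hnC
    apply hcent
    have h1 : (⟨n⁻¹ * w * n, hmem⟩ : C) = w ^ (Fintype.card F ^ i) := Subtype.ext h
    rw [h1, map_pow] at heq
    have hwr : w ^ r = 1 := Subtype.ext hψr
    have h2 : orderOf (θ w) = r := orderOf_eq_prime (by rw [← map_pow, hwr, map_one]) hθ
    have h3 : Fintype.card F ^ i ≡ 1 [MOD r] := by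
      rw [← h2, ← pow_eq_pow_iff_modEq, pow_one]
      exact heq.symm
    have h4 : ψ x' ^ (Fintype.card F ^ i) = ψ x' := by
      conv_rhs => rw [← pow_one (ψ x')]
      rw [pow_eq_pow_iff_modEq, hox]
      exact h3
    rw [h4] at h
    calc n * ψ x' = n * (n⁻¹ * ψ x' * n) := by rw [h]
      _ = ψ x' * n := by group

end

end Cfsg.Agent.H311.SQ
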